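import Cfsg.Agent.CpAutLy.Row
import Cfsg.Agent.H379.J2Spec
import Cfsg.Agent.H904.HSIso
import Cfsg.Agent.H904.McLCent
import Cfsg.Agent.H805.NilSuz
import Cfsg.Agent.Fischer.Fi22PtsRep
import Cfsg.Agent.H61.SpAltFb

/-!
# Some element orders of sporadic groups (helper61)
-/

set_option autoImplicit false
set_option maxRecDepth 100000

namespace Cfsg.Agent.H61.SpAlt

open Cfsg Subgroup

universe u v

theorem exists_ord_congr {X Y : Type*} [Group X] [Group Y] (e : X ≃* Y) {m : ℕ} (h : ∃ y : Y, orderOf y = m) :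
    ∃ x : X, orderOf x = m := by
  obtain ⟨y, hy⟩ := h
  exact ⟨e.symm y, by rw [MulEquiv.orderOf_eq, hy]⟩

theorem J2_eight {X : Type u} [Group X] (h : Cfsg.Spor.IsoJ2 X) : ∃ x : X, orderOf x = 8 := by
  obtain ⟨e⟩ := h
  refine exists_ord_congr e ?_
  have h1 : 8 ∈ Set.range (orderOf : Cfsg.Spor.J2 → ℕ) := by
    rw [Cfsg.Agent.H379.J2Spec.range_J2]
    decide
  exact h1

theorem McL_thirty {X : Type u} [Group X] (h : Cfsg.Spor.IsoMcL X) : ∃ x : X, orderOf x = 30 := by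
  obtain ⟨z, u, f, hz, hu, hf, hzu, hzf, huf, -⟩ := Cfsg.Agent.CpAutLy.McLElt.exists_data h
  have h1 : orderOf (z * u) = 6 := by
    have hc : Commute z u := hzu
    rw [hc.orderOf_mul_eq_mul_orderOf_of_coprime, hz, hu]
    rw [hz, hu]
    decide
  refine ⟨z * u * f, ?_⟩
  have hc : Commute (z * u) f := by
    have h2 : Commute z f := hzf
    have h3 : Commute u f := huf
    exact h2.mul_left h3
  rw [hc.orderOf_mul_eq_mul_orderOf_of_coprime, h1, hf]
  rw [h1, hf]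
  decide

section Fi

open Cfsg.Spor.Fi22 Cfsg.Agent.Lib.PermNet Cfsg.Agent.Lib.PermNetOrbit
open Cfsg.Agent.Fischer.Fi22PtsRep

/-- a word of length 56 giving an element of order divisible by 16 of `Fi22` -/
def w16 : List Gen :=
  [.h, .d, .b, .a, .f, .a, .e, .i, .b, .a, .i, .b, .h, .d, .c, .a, .f, .d, .b, .i, .g, .c, .f, .b, .i, .b, .e, .b,
   .i, .h, .a, .h, .d, .i, .e, .g, .i, .e, .f, .i, .a, .e, .g, .i, .e, .b, .i, .e, .a, .d, .i, .c, .g, .i, .h, .i]

/-- iterates -/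
def itf (f : ℕ → ℕ) : ℕ → ℕ → ℕ
  | 0, x => x
  | n + 1, x => itf f n (f x)

theorem itf_eq (f : ℕ → ℕ) (n x : ℕ) : itf f n x = f^[n] x := by
  induction n generalizing x with
  | zero => rfl
  | succ n ih => rw [itf, ih, Function.iterate_succ_apply]

theorem w16_chk : (Nat.beq (itf (ptWord (nw w16)) 16 0) 0 && !Nat.beq (itf (ptWord (nw w16)) 8 0) 0) = true := by
  decide +kernel

theorem Fi22_sixteen {X : Type u} [Group X] [Finite X] (h : Cfsg.Spor.IsoFi22 X) : ∃ x : X, orderOf x = 16 := by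
  obtain ⟨e⟩ := h
  have hfin : Finite Cfsg.Spor.Fi22 := Finite.of_equiv X e.toEquiv
  refine exists_ord_congr e ?_
  have hf : ∀ p, φ (wd w16) p = ptWord (nw w16) p := fun p => φ_wd_apply _ p
  have hit : ∀ n x, (φ (wd w16))^[n] x = itf (ptWord (nw w16)) n x := by
    intro n
    induction n with
    | zero => intro x; rfl
    | succ n ih => intro x; rw [Function.iterate_succ_apply, itf, ih, hf]
  have hc := w16_chk
  rw [Bool.and_eq_true, Nat.beq_eq, Bool.not_eq_true', ← Bool.not_eq_true, Nat.beq_eq] at hc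
  have h1 : Function.IsPeriodicPt (φ (wd w16)) (2 ^ (3 + 1)) 0 := by
    change (φ (wd w16))^[16] 0 = 0
    rw [hit]; exact hc.1
  have h2 : ¬ Function.IsPeriodicPt (φ (wd w16)) (2 ^ 3) 0 := by
    change ¬ (φ (wd w16))^[8] 0 = 0
    rw [hit]; exact hc.2
  have h3 := Function.minimalPeriod_eq_prime_pow (hp := ⟨Nat.prime_two⟩) h2 h1
  have h4 : Function.IsPeriodicPt (φ (wd w16)) (orderOf (wd w16)) 0 := by
    change (φ (wd w16))^[orderOf (wd w16)] 0 = 0
    rw [← Equiv.Perm.coe_pow, ← map_pow, pow_orderOf_eq_one, map_one]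
    rfl
  have h5 : 16 ∣ orderOf (wd w16) := by
    have := h4.minimalPeriod_dvd
    rwa [h3] at this
  obtain ⟨k, hk⟩ := Cfsg.Agent.H379.J2Orders.exists_pow_orderOf _ h5
  exact ⟨_, hk⟩

end Fi

/-! ### Nonadjacent primes -/

/-- no element of order `7 q` if `q` does not divide the order of the centralizer of an element of order `7` -/
theorem no_seven_mul {X : Type u} [Group X] [Finite X] {q N : ℕ} (hq : q ∣ N → False) (hq0 : 0 < q)
    (hc : ∀ x : X, orderOf x = 7 → Nat.card (centralizer ({x} : Set X)) ∣ N) : ¬ ∃ x : X, orderOf x = 7 * q := by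
  rintro ⟨x, hx⟩
  have h7 : orderOf (x ^ q) = 7 := by
    rw [orderOf_pow_of_dvd hq0.ne' (by rw [hx]; exact Dvd.intro_left _ rfl), hx, Nat.mul_div_cancel _ hq0]
  have hqo : orderOf (x ^ 7) = q := by
    rw [orderOf_pow_of_dvd (by norm_num) (by rw [hx]; exact Dvd.intro _ rfl), hx, Nat.mul_div_cancel_left _ (by norm_num)]
  have h1 : x ^ 7 ∈ centralizer ({x ^ q} : Set X) := by
    rw [mem_centralizer_singleton_iff, ← pow_add, ← pow_add, add_comm]
  have h2 := orderOf_dvd_natCard (⟨x ^ 7, h1⟩ : centralizer ({x ^ q} : Set X))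
  rw [Subgroup.orderOf_mk, hqo] at h2
  exact hq (h2.trans (hc _ h7))

theorem HS_no {X : Type u} [Group X] [Finite X] (h : Cfsg.Spor.IsoHS X) {q : ℕ} (hq : q = 3 ∨ q = 5) :
    ¬ ∃ x : X, orderOf x = 7 * q := by
  refine no_seven_mul (N := 7) ?_ ?_ fun x hx => by rw [Cfsg.Agent.H904.HSIso.card_seven h hx]
  · rcases hq with rfl | rfl <;> norm_num
  · rcases hq with rfl | rfl <;> norm_num

theorem M22_no {X : Type u} [Group X] [Finite X] (h : Cfsg.Spor.IsoM22 X) {q : ℕ} (hq : q = 3 ∨ q = 5) :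
    ¬ ∃ x : X, orderOf x = 7 * q := by
  rintro ⟨x, hx⟩
  obtain ⟨e⟩ := h
  obtain ⟨f, hf⟩ := Cfsg.Agent.H921.Spor.Co.exists_HS
  have hfin : Finite Cfsg.Spor.HS := by
    have hs : Nat.card Cfsg.Spor.HS = 44352000 := Cfsg.Agent.KFacts.HS.card (L := Cfsg.Spor.HS) ⟨MulEquiv.refl _⟩
    exact Nat.finite_of_card_ne_zero (by rw [hs]; norm_num)
  exact HS_no (X := Cfsg.Spor.HS) ⟨MulEquiv.refl _⟩ hq ⟨f (e x), by rw [orderOf_injective f hf, MulEquiv.orderOf_eq, hx]⟩

theorem McL_no {X : Type u} [Group X] [Finite X] (h : Cfsg.Spor.IsoMcL X) : ¬ ∃ x : X, orderOf x = 7 * 5 := by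
  refine no_seven_mul (N := 14) (by norm_num) (by norm_num) fun x hx => ?_
  have h1 := (Cfsg.Agent.H904.McLCent.seven h (zpowers x) (by rw [Nat.card_zpowers, hx])).1
  have h2 : centralizer ((zpowers x : Subgroup X) : Set X) = centralizer ({x} : Set X) := by
    rw [zpowers_eq_closure, Subgroup.centralizer_closure]
  rwa [h2] at h1

theorem Suz_no {X : Type u} [Group X] [Finite X] (h : Cfsg.Spor.IsoSuz X) : ¬ ∃ x : X, orderOf x = 7 * 5 := by
  obtain ⟨e⟩ := h
  have hfin : Finite Cfsg.Spor.Suz := Finite.of_equiv X e.toEquiv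
  rintro ⟨x, hx⟩
  refine no_seven_mul (X := Cfsg.Spor.Suz) (N := 84) (q := 5) (by norm_num) (by norm_num) (fun y hy => ?_)
    ⟨e x, by rw [MulEquiv.orderOf_eq, hx]⟩
  rw [Cfsg.Agent.H805.NilSp.cent_seven_Suz hy]

end Cfsg.Agent.H61.SpAlt
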