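import Cfsg.Agent.H998.SpAlt.Layer
import Cfsg.Agent.H998.SpAlt.JTwoC
import Cfsg.Agent.S0577

/-!
# The top factor of a nilpotent kernel (helper61)

`f : G →* X` surjective with nilpotent kernel, `s` a prime dividing the order of the kernel.

* `exists_top` : `X` acts on a nontrivial elementary abelian `s`-group, nonzero norms give elements of `G`;
* `nil_frob` : a Frobenius group `r : e` in `X`: `e s ∈ ω(G)` or `m s ∈ ω(G)` for all `m ∈ ω(X)` prime to `s`;
* `nil_klein` : `2² × A₄` in `X`, `s = 3`: `18 ∈ ω(G)` or `3 m ∈ ω(G)` for all `m ∈ ω(X)` prime to `3`.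
-/

set_option autoImplicit false

namespace Cfsg.Agent.H61.SpAlt

open Subgroup Cfsg.Agent.H998.SpAlt

universe u v

section Norm

variable {G : Type*} [Group G] {R : Type*} [Ring R] (ρ : G →* R)

theorem nm_mul {g : G} {e : ℕ} (h : ρ g ^ e = 1) (c : ℕ) : nm ρ g (e * c) = c • nm ρ g e := by
  induction c with
  | zero => simp [nm]
  | succ c ih =>
    have h1 : nm ρ g (e * (c + 1)) = nm ρ g (e * c) + nm ρ g e := by
      unfold nm
      rw [mul_add, mul_one, Finset.sum_range_add]
      congr 1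
      refine Finset.sum_congr rfl fun i _ => ?_
      rw [pow_add, pow_mul, h, one_pow, one_mul]
    rw [h1, ih, succ_nsmul]

end Norm

/-- **The top factor.** -/
theorem exists_top {G : Type u} [Group G] [Finite G] {X : Type v} [Group X] (f : G →* X)
    (hf : Function.Surjective f) (hn : Group.IsNilpotent ↥f.ker) {s : ℕ} (hs : s.Prime) (hsd : s ∣ Nat.card f.ker) :
    ∃ (A : Type u) (_ : AddCommGroup A) (_ : Nontrivial A) (_ : Finite A) (ρ : X →* AddMonoid.End A),
      (∀ a : A, s • a = 0) ∧ ∀ x : X, nm ρ x (orderOf x) ≠ 0 → Has G (orderOf x * s) := by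
  obtain ⟨G', _, _, q, f', V, s', hq, hqf, hVn, hVK, hV1, hVc, hs', hss, hVs, -, hrel, -⟩ :=
    exists_layer (fun p => p = s) _ G rfl f hf (have := hn; inferInstance) ⟨s, hs, rfl, hsd⟩
  obtain rfl : s' = s := hss
  have hf' : Function.Surjective f' := by
    intro x
    obtain ⟨g, rfl⟩ := hf x
    exact ⟨q g, hqf g⟩
  have hk' : f'.ker = f.ker.map q := by
    ext z
    obtain ⟨g, rfl⟩ := hq z
    constructor
    · intro h
      exact ⟨g, MonoidHom.mem_ker.2 (by rw [← hqf]; exact h), rfl⟩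
    · rintro ⟨g', hg', e⟩
      rw [← e]
      exact MonoidHom.mem_ker.2 (by rw [hqf]; exact hg')
  have hn' : Group.IsNilpotent ↥f'.ker := by
    rw [hk']
    have := hn
    exact Group.nilpotent_of_surjective (q.subgroupMap f.ker) (q.subgroupMap_surjective f.ker)
  set n := V.relIndex f'.ker with hn0
  have hns : n.Coprime s' := by
    rw [Nat.coprime_comm]
    exact (Nat.Prime.coprime_iff_not_dvd hs).2 (hrel s' hs rfl)
  have hpow : ∀ g ∈ f'.ker, g ^ n ∈ V := by
    intro g hg
    have hVn' : (V.subgroupOf f'.ker).Normal := Subgroup.normal_subgroupOf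
    have h1 := (V.subgroupOf f'.ker).pow_index_mem ⟨g, hg⟩
    exact h1
  obtain ⟨A, iA, ρ, ι, h1, h2, h3, h4, h5⟩ := exists_act V hVc
  have h0 := iota_zero h4
  have hsmul : ∀ (a : A) (n : ℕ), ι (n • a) = ι a ^ n := by
    intro a n
    induction n with
    | zero => rw [zero_smul, h0, pow_zero]
    | succ n ih => rw [succ_nsmul, h4, ih, pow_succ]
  have hA : ∀ a : A, s' • a = 0 := by
    intro a
    apply h1
    rw [hsmul, h0]
    exact hVs _ (h2 a)
  have hnt : Nontrivial A := by
    obtain ⟨⟨v, hv⟩, hv1'⟩ := Subgroup.ne_bot_iff_exists_ne_one.1 hV1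
    have hv1 : v ≠ 1 := fun h => hv1' (Subtype.ext h)
    obtain ⟨a, rfl⟩ := h3 v hv
    exact ⟨a, 0, fun h => hv1 (by rw [h, h0])⟩
  -- the kernel centralizes `V`
  have hcent : ∀ g ∈ f'.ker, ∀ v ∈ V, Commute g v := by
    intro g hg v hv
    obtain ⟨a, b, hab⟩ := (Nat.isCoprime_iff_coprime.2 hns : IsCoprime ((n : ℕ) : ℤ) ((s' : ℕ) : ℤ))
    have e1 : g = (g ^ n) ^ a * (g ^ s') ^ b := by
      rw [← zpow_natCast, ← zpow_natCast, ← zpow_mul, ← zpow_mul, ← zpow_add, mul_comm (n : ℤ) a,
        mul_comm (s' : ℤ) b, hab, zpow_one]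
    have c1 : Commute (g ^ n) v := hVc _ (hpow g hg) v hv
    have c2 : Commute (g ^ s') v := by
      have hgk : g ^ s' ∈ f'.ker := pow_mem hg _
      have hcop : (orderOf (g ^ s')).Coprime (orderOf v) := by
        have d1 : orderOf (g ^ s') ∣ n := by
          apply orderOf_dvd_of_pow_eq_one
          rw [← pow_mul, mul_comm, pow_mul]
          exact hVs _ (hpow g hg)
        have d2 : orderOf v ∣ s' := orderOf_dvd_of_pow_eq_one (hVs v hv)
        exact (hns.coprime_dvd_left d1).coprime_dvd_right d2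
      have := S0577.commute_of_coprime_orderOf (⟨_, hgk⟩ : f'.ker) ⟨v, hVK hv⟩ (by
        rw [Subgroup.orderOf_mk, Subgroup.orderOf_mk]; exact hcop)
      exact congrArg Subtype.val this
    rw [e1]
    exact (c1.zpow_left a).mul_left (c2.zpow_left b)
  have hker : ∀ g ∈ f'.ker, ρ g = 1 := by
    intro g hg
    ext a
    apply h1
    rw [h5, (hcent g hg _ (h2 a)).eq]
    change ι a * g * g⁻¹ = ι a
    group
  let ρ' : X →* AddMonoid.End A := (QuotientGroup.lift f'.ker ρ hker).comp
    (QuotientGroup.quotientKerEquivOfSurjective f' hf').symm.toMonoidHom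
  have hρ' : ∀ g, ρ' (f' g) = ρ g := by
    intro g
    have e1 : (QuotientGroup.quotientKerEquivOfSurjective f' hf').symm (f' g) = (g : G' ⧸ f'.ker) := by
      rw [MulEquiv.symm_apply_eq]
      rfl
    change QuotientGroup.lift f'.ker ρ hker ((QuotientGroup.quotientKerEquivOfSurjective f' hf').symm (f' g)) = _
    rw [e1]
    rfl
  refine ⟨A, iA, hnt, Finite.of_injective ι h1, ρ', hA, ?_⟩
  intro x hx
  obtain ⟨g, rfl⟩ := hf' x
  set e := orderOf (f' g) with he
  set m := orderOf (g : G' ⧸ V) with hm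
  have hem : e ∣ m := by
    rw [he, hm]
    exact orderOf_map_dvd (QuotientGroup.lift V f' fun v hv => hVK hv) (g : G' ⧸ V)
  have hge : g ^ e ∈ f'.ker := by rw [MonoidHom.mem_ker, map_pow, pow_orderOf_eq_one]
  have hmn : m ∣ e * n := by
    rw [hm]
    apply orderOf_dvd_of_pow_eq_one
    rw [← QuotientGroup.mk_pow, QuotientGroup.eq_one_iff, pow_mul]
    exact hpow _ hge
  obtain ⟨c, hc⟩ := hem
  have he0 : 0 < e := by
    rw [he]
    exact orderOf_pos_iff.2 (f'.isOfFinOrder (isOfFinOrder_of_finite g))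
  have hcn : c ∣ n := by
    rw [hc] at hmn
    exact Nat.dvd_of_mul_dvd_mul_left he0 hmn
  have hcs : ¬ s' ∣ c := by
    intro h
    exact hrel s' hs rfl (h.trans hcn)
  have hρe : ρ g ^ e = 1 := by
    rw [← map_pow]
    exact hker _ hge
  have hnm : nm ρ g m ≠ 0 := by
    rw [hc, nm_mul ρ hρe]
    have h6 : nm ρ g e ≠ 0 := by
      have : nm ρ' (f' g) e = nm ρ g e := by
        unfold nm
        rw [hρ']
      rwa [this] at hx
    intro h7
    apply h6
    ext a
    by_contra h8
    refine nsmul_ne hs hA hcs (a := nm ρ g e a) h8 ?_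
    have := congrArg (fun φ : AddMonoid.End A => φ a) h7
    exact this
  have hfin := has_of_norm hs hVs ρ h1 h2 h4 h5 (g := g) (m := m) ?_ ?_ hnm
  · refine (Has.of_surj q hq hfin).dvd ?_
    rw [hc, mul_assoc, mul_comm c, ← mul_assoc]
    exact Dvd.intro _ rfl
  · rw [← QuotientGroup.eq_one_iff, QuotientGroup.mk_pow, pow_orderOf_eq_one]
  · intro k hk
    rw [← QuotientGroup.eq_one_iff, QuotientGroup.mk_pow] at hk
    exact orderOf_dvd_of_pow_eq_one hk

section

variable {G : Type u} [Group G] {X : Type v} [Group X]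

/-- a trivial action -/
theorem has_of_trivial [IsSimpleGroup X] {A : Type*} [AddCommGroup A] [Nontrivial A] {ρ : X →* AddMonoid.End A}
    {s : ℕ} (hs : s.Prime) (hA : ∀ a : A, s • a = 0)
    (hnm : ∀ x : X, nm ρ x (orderOf x) ≠ 0 → Has G (orderOf x * s)) {t : X} (ht : t ≠ 1) (hρ : ρ t = 1)
    {m : ℕ} (hm : m.Coprime s) (hX : Has X m) : Has G (m * s) := by
  have htop : ρ.ker = ⊤ := by
    rcases (inferInstance : ρ.ker.Normal).eq_bot_or_eq_top with h | h
    · exfalso
      have h1 : t ∈ ρ.ker := hρ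
      rw [h, mem_bot] at h1
      exact ht h1
    · exact h
  obtain ⟨x, rfl⟩ := hX
  apply hnm
  have hx : ρ x = 1 := by
    have : x ∈ ρ.ker := by rw [htop]; exact mem_top _
    exact this
  obtain ⟨a, ha⟩ := exists_ne (0 : A)
  have hsn : ¬ s ∣ orderOf x := by
    intro h
    exact hs.one_lt.ne' (Nat.dvd_one.1 (hm ▸ Nat.dvd_gcd h dvd_rfl))
  intro h0
  refine nsmul_ne hs hA hsn ha ?_
  have h3 : nm ρ x (orderOf x) a = orderOf x • a := by
    unfold nm
    rw [hx]
    simp only [one_pow, Finset.sum_const, Finset.card_range]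
    rfl
  rw [← h3, h0]
  rfl

variable [Finite G]

/-- **Frobenius groups and the top factor.** -/
theorem nil_frob [IsSimpleGroup X] (f : G →* X) (hf : Function.Surjective f) (hn : Group.IsNilpotent ↥f.ker) {s : ℕ}
    (hs : s.Prime) (hsd : s ∣ Nat.card f.ker) {r e k : ℕ} (hr : r.Prime) (hrs : r ≠ s) {a x : X} (ha : orderOf a = r)
    (hx : orderOf x = e) (he : 1 ≤ e) (hc : x * a * x⁻¹ = a ^ k) (hk : ∀ i, 0 < i → i < e → ¬ k ^ i ≡ 1 [MOD r])
    (hno : ¬ Has G (e * s)) {m : ℕ} (hm : m.Coprime s) (hX : Has X m) : Has G (m * s) := by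
  obtain ⟨A, _, _, _, ρ, hA, hnm⟩ := exists_top f hf hn hs hsd
  have h0 : nm ρ x e = 0 := by
    by_contra hne
    rw [← hx] at hne
    exact hno (hx ▸ hnm x hne)
  have h1 := act_frob (ρ := ρ) hA hr ((Nat.coprime_primes hr hs).2 hrs) ha he (by rw [← hx, pow_orderOf_eq_one]) hc hk h0
  refine has_of_trivial hs hA hnm (t := a) ?_ h1 hm hX
  intro h2
  rw [h2, orderOf_one] at ha
  exact hr.one_lt.ne ha

/-- the Klein four-group -/
def klein (a d : X) (ha : a * a = 1) (hd : d * d = 1) (had : a * d = d * a) : Subgroup X where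
  carrier := {z | z = 1 ∨ z = a ∨ z = d ∨ z = a * d}
  one_mem' := Or.inl rfl
  mul_mem' := by
    have e1 : a * (a * d) = d := by rw [← mul_assoc, ha, one_mul]
    have e2 : d * (a * d) = a := by rw [had, ← mul_assoc, hd, one_mul]
    have e3 : a * d * a = d := by rw [had, mul_assoc, ha, mul_one]
    have e4 : a * d * d = a := by rw [mul_assoc, hd, mul_one]
    have e5 : a * d * (a * d) = 1 := by rw [← mul_assoc, e3, hd]
    rintro x y (rfl | rfl | rfl | rfl) (rfl | rfl | rfl | rfl)
    · exact Or.inl (one_mul 1)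
    · exact Or.inr (Or.inl (one_mul _))
    · exact Or.inr (Or.inr (Or.inl (one_mul _)))
    · exact Or.inr (Or.inr (Or.inr (one_mul _)))
    · exact Or.inr (Or.inl (mul_one _))
    · exact Or.inl ha
    · exact Or.inr (Or.inr (Or.inr rfl))
    · exact Or.inr (Or.inr (Or.inl e1))
    · exact Or.inr (Or.inr (Or.inl (mul_one _)))
    · exact Or.inr (Or.inr (Or.inr had.symm))
    · exact Or.inl hd
    · exact Or.inr (Or.inl e2)
    · exact Or.inr (Or.inr (Or.inr (mul_one _)))
    · exact Or.inr (Or.inr (Or.inl e3))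
    · exact Or.inr (Or.inl e4)
    · exact Or.inl e5
  inv_mem' := by
    rintro x (rfl | rfl | rfl | rfl)
    · exact Or.inl inv_one
    · exact Or.inr (Or.inl (inv_eq_of_mul_eq_one_left ha))
    · exact Or.inr (Or.inr (Or.inl (inv_eq_of_mul_eq_one_left hd)))
    · refine Or.inr (Or.inr (Or.inr (inv_eq_of_mul_eq_one_left ?_)))
      nth_rewrite 1 [had]
      rw [mul_assoc, ← mul_assoc a, ha, one_mul, hd]

/-- **`2² × A₄` and the top factor, `s = 3`.** -/
theorem nil_klein [IsSimpleGroup X] (f : G →* X) (hf : Function.Surjective f) (hn : Group.IsNilpotent ↥f.ker)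
    (hsd : 3 ∣ Nat.card f.ker) {b c a x : X} (hb : orderOf b = 2) (hc : orderOf c = 2) (hbc : b ≠ c)
    (h1 : b * c = c * b) (ha : orderOf a = 2) (hx : orderOf x = 3)
    (h2 : a * (x * a * x⁻¹) = (x * a * x⁻¹) * a) (h3 : x * (x * a * x⁻¹) * x⁻¹ = a * (x * a * x⁻¹))
    (hbx : b * x = x * b) (hcx : c * x = x * c)
    (hno : ¬ Has G 18) {m : ℕ} (hm : m.Coprime 3) (hX : Has X m) : Has G (m * 3) := by
  obtain ⟨A, _, _, _, ρ, hA, hnm⟩ := exists_top f hf hn Nat.prime_three hsd
  set N : AddMonoid.End A := nm ρ x 3 with hN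
  have hx3 : x ^ 3 = 1 := by rw [← hx, pow_orderOf_eq_one]
  -- an involution `z` commuting with `x` acts as `-1` on the image of the norm
  have key : ∀ z : X, orderOf z = 2 → z * x = x * z → ρ z * N = - N := by
    intro z hz hzx
    have hcom : Commute z x := hzx
    have ho : orderOf (z * x) = 6 := by
      rw [hcom.orderOf_mul_eq_mul_orderOf_of_coprime, hz, hx]
      rw [hz, hx]
      decide
    have h0 : nm ρ (z * x) 6 = 0 := by
      by_contra hne
      rw [← ho] at hne
      have := hnm _ hne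
      rw [ho] at this
      exact hno this
    have hz2 : ρ z ^ 2 = 1 := by rw [← map_pow, ← hz, pow_orderOf_eq_one, map_one]
    have hxx : ρ x ^ 3 = 1 := by rw [← map_pow, hx3, map_one]
    have hcρ : Commute (ρ z) (ρ x) := hcom.map ρ
    have e1 : nm ρ (z * x) 6 = N + ρ z * N := by
      rw [hN]
      unfold nm
      simp only [Finset.sum_range_succ, Finset.sum_range_zero, map_mul, hcρ.mul_pow, zero_add, pow_zero, pow_one]
      have p3 : ρ z ^ 3 = ρ z := by rw [pow_succ, hz2, one_mul]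
      have p4 : ρ z ^ 4 = 1 := by rw [show 4 = 2 * 2 by norm_num, pow_mul, hz2, one_pow]
      have p5 : ρ z ^ 5 = ρ z := by rw [pow_succ, p4, one_mul]
      have q4 : ρ x ^ 4 = ρ x := by rw [pow_succ, hxx, one_mul]
      have q5 : ρ x ^ 5 = ρ x ^ 2 := by rw [show 5 = 3 + 2 by norm_num, pow_add, hxx, one_mul]
      rw [hz2, p3, p4, p5, hxx, q4, q5, mul_add, mul_add, mul_one, one_mul, one_mul]
      abel
    rw [e1] at h0
    exact eq_neg_of_add_eq_zero_right h0
  have hbc2 : orderOf (b * c) = 2 := by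
    have hf2 := Fact.mk Nat.prime_two
    refine orderOf_eq_prime ?_ ?_
    · have : Commute b c := h1
      have b2 : b ^ 2 = 1 := by rw [← hb, pow_orderOf_eq_one]
      have c2 : c ^ 2 = 1 := by rw [← hc, pow_orderOf_eq_one]
      rw [this.mul_pow, b2, c2, one_mul]
    · intro h
      apply hbc
      have c2 : c ^ 2 = 1 := by rw [← hc, pow_orderOf_eq_one]
      rw [pow_two] at c2
      exact (mul_eq_one_iff_eq_inv.1 h).trans (inv_eq_of_mul_eq_one_left c2)
  have kb := key b hb hbx
  have kc := key c hc hcx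
  have kbc := key (b * c) hbc2 (by rw [mul_assoc, hcx, ← mul_assoc, hbx, mul_assoc])
  rw [map_mul, mul_assoc, kc, mul_neg, kb, neg_neg] at kbc
  have h3N : (3 : ℕ) • N = 0 := by
    ext a
    exact hA (N a)
  have hN0 : N = 0 := by
    have e1 : N + N = 0 := by
      nth_rewrite 1 [kbc]
      exact neg_add_cancel N
    have e2 : (3 : ℕ) • N = N + (N + N) := by
      rw [show (3 : ℕ) = 1 + 2 by norm_num, add_nsmul, one_nsmul, two_nsmul]
    rw [e1, add_zero] at e2
    rw [← e2, h3N]
  -- the Klein four-group acts trivially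
  have a2 : a * a = 1 := by
    have : a ^ 2 = 1 := by rw [← ha, pow_orderOf_eq_one]
    rwa [pow_two] at this
  set d : X := x * a * x⁻¹ with hd
  have d2 : d * d = 1 := by
    rw [hd]
    calc x * a * x⁻¹ * (x * a * x⁻¹) = x * (a * a) * x⁻¹ := by group
      _ = 1 := by rw [a2]; group
  have ha1 : a ≠ 1 := by
    intro h
    rw [h, orderOf_one] at ha
    omega
  have hd1 : d ≠ 1 := by
    intro h
    apply ha1
    rw [hd, mul_inv_eq_one] at h
    exact mul_eq_left.1 h
  have had : a ≠ d := by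
    intro h
    -- then `a = a d = 1`
    rw [← h] at h3
    have h4 : x * a * x⁻¹ = a * a := h3
    rw [a2] at h4
    exact hd1 h4
  have had1 : a * d ≠ 1 := by
    intro h
    exact had ((mul_eq_one_iff_eq_inv.1 h).trans (inv_eq_of_mul_eq_one_left d2))
  have e3 : x * (a * d) * x⁻¹ = a := by
    calc x * (a * d) * x⁻¹ = (x * a * x⁻¹) * (x * d * x⁻¹) := by group
      _ = d * (a * d) := by rw [h3]
      _ = a * (d * d) := by rw [← mul_assoc, ← h2, mul_assoc]
      _ = a := by rw [d2, mul_one]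
  let T := klein a d a2 d2 h2
  have hmem : ∀ {z : X}, z ∈ T ↔ z = 1 ∨ z = a ∨ z = d ∨ z = a * d := Iff.rfl
  have hTf : Finite T := by
    have : (T : Set X) ⊆ ({1, a, d, a * d} : Set X) := by
      rintro z (rfl | rfl | rfl | rfl) <;> simp
    exact (Set.toFinite ({1, a, d, a * d} : Set X)).subset this |>.to_subtype
  have hTt : Fintype T := Fintype.ofFinite _
  have hTp : IsPGroup 2 T := by
    rintro ⟨z, hz⟩
    refine ⟨1, Subtype.ext ?_⟩
    change z ^ (2 ^ 1) = 1
    rw [pow_one, pow_two]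
    rcases hmem.1 hz with rfl | rfl | rfl | rfl
    · exact one_mul 1
    · exact a2
    · exact d2
    · calc a * d * (a * d) = a * (d * a) * d := by group
        _ = a * (a * d) * d := by rw [h2]
        _ = (a * a) * (d * d) := by group
        _ = 1 := by rw [a2, d2, one_mul]
  have hcop : (Fintype.card T).Coprime 3 := by
    have hf2 := Fact.mk Nat.prime_two
    obtain ⟨k, hk⟩ := (IsPGroup.iff_card).1 hTp
    rw [← Nat.card_eq_fintype_card, hk]
    exact Nat.Coprime.pow_left k (by norm_num)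
  have hconj : ∀ z ∈ T, x * z * x⁻¹ ∈ T := by
    intro z hz
    rcases hmem.1 hz with rfl | rfl | rfl | rfl
    · rw [mul_one, mul_inv_cancel]; exact T.one_mem
    · exact hmem.2 (Or.inr (Or.inr (Or.inl rfl)))
    · rw [h3]; exact hmem.2 (Or.inr (Or.inr (Or.inr rfl)))
    · rw [e3]; exact hmem.2 (Or.inr (Or.inl rfl))
  have hfix : ∀ z ∈ T, x * z * x⁻¹ = z → z = 1 := by
    intro z hz hzz
    rcases hmem.1 hz with rfl | rfl | rfl | rfl
    · rfl
    · exact absurd hzz.symm had
    · rw [h3] at hzz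
      exact absurd (mul_eq_right.1 hzz) ha1
    · rw [e3] at hzz
      exact absurd (mul_eq_left.1 hzz.symm) hd1
  have hs0 : ((3 : ℕ) : AddMonoid.End A) = 0 := by
    ext a
    rw [AddMonoid.End.natCast_apply]
    exact hA a
  have hρa := frob_trivial ρ hs0 (T := T) hcop (x := x) (m := 3) (by norm_num) hconj ?_ hN0 a
    (hmem.2 (Or.inr (Or.inl rfl)))
  · exact has_of_trivial Nat.prime_three hA hnm ha1 hρa hm hX
  · intro i hi hi3 z hz hzz
    have hi' : i = 1 ∨ i = 2 := by omega
    rcases hi' with rfl | rfl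
    · rw [pow_one] at hzz
      exact hfix z hz hzz
    · -- `x ^ 2 = x⁻¹`
      refine hfix z hz ?_
      have e4 : x ^ 2 = x⁻¹ := by
        rw [eq_inv_iff_mul_eq_one, ← pow_succ]
        exact hx3
      rw [e4, inv_inv] at hzz
      calc x * z * x⁻¹ = x * (x⁻¹ * z * x) * x⁻¹ := by rw [hzz]
        _ = z := by group

end

end Cfsg.Agent.H61.SpAlt
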